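import Cfsg.Agent.Lib.TwoGrp.AutSyl
import Cfsg.Agent.Lib.Suzuki.Structure

/-! Automorphisms of the Sylow 2-subgroups of the Suzuki groups. -/

set_option autoImplicit false
set_option linter.unusedSectionVars false

namespace H13.TG.AS

open Subgroup Cfsg H14.Sz

section quad

variable {F : Type*} [Field F] [Fintype F] [CharP F 2] [Fintype (F ≃+* F)]

theorem coeff_eq_zero {c : (F ≃+* F) → F} (h : ∀ x, ∑ σ, c σ * σ x = 0) (σ : F ≃+* F) : c σ = 0 :=
  Fintype.linearIndependent_iff.1 (H40.FieldAut.linIndep (F := F)) c (funext fun x => by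
    simp only [Finset.sum_apply, Pi.smul_apply, smul_eq_mul]
    exact h x) σ

theorem quad_coeff {c : (F ≃+* F) → (F ≃+* F) → F} (h : ∀ x, ∑ σ, ∑ τ, c σ τ * (σ x * τ x) = 0) :
    (∀ σ τ, c σ τ = c τ σ) ∧ ∀ σ, c σ σ = 0 := by
  classical
  have c2 : (2 : F) = 0 := CharTwo.two_eq_zero
  have h1 : ∀ σ τ, c σ τ = c τ σ := fun σ τ => by
    have h2 : ∀ x y, ∑ σ, (∑ τ, (c σ τ + c τ σ) * τ y) * σ x = 0 := fun x y => by
      have e1 := h (x + y)
      have e2 : ∑ σ, ∑ τ, c σ τ * (σ (x + y) * τ (x + y)) = ∑ σ, ∑ τ, c σ τ * (σ x * τ x) +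
          ∑ σ, ∑ τ, c σ τ * (σ y * τ y) + (∑ σ, ∑ τ, c σ τ * (σ x * τ y) +
          ∑ τ, ∑ σ, c σ τ * (σ y * τ x)) := by
        rw [Finset.sum_comm (f := fun τ σ => c σ τ * (σ y * τ x))]
        simp only [← Finset.sum_add_distrib]
        exact Finset.sum_congr rfl fun σ _ => Finset.sum_congr rfl fun τ _ => by
          rw [map_add, map_add]; ring
      rw [e2, h, h, zero_add, zero_add, ← Finset.sum_add_distrib] at e1
      rw [← e1]
      refine Finset.sum_congr rfl fun σ _ => ?_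
      rw [← Finset.sum_add_distrib, Finset.sum_mul]
      exact Finset.sum_congr rfl fun τ _ => by ring
    have h3 := coeff_eq_zero (fun y => coeff_eq_zero (fun x => h2 x y) σ) τ
    linear_combination h3 - c τ σ * c2
  refine ⟨h1, coeff_eq_zero fun y => ?_⟩
  have : Fact (Nat.Prime 2) := ⟨Nat.prime_two⟩
  obtain ⟨x, rfl⟩ := (Finite.injective_iff_surjective.1 (frobenius_inj F 2)) y
  have e1 := h x
  rw [← Finset.sum_product', ← Finset.sum_filter_add_sum_filter_not _ (fun p => p.1 = p.2),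
    Finset.sum_involution (s := Finset.filter (fun p => ¬ p.1 = p.2) _) (fun p _ => p.swap)
      (fun p _ => by
        rw [Prod.fst_swap, Prod.snd_swap, h1 p.2 p.1]
        linear_combination (c p.1 p.2 * (p.1 x * p.2 x)) * c2)
      (fun p hp _ e => (Finset.mem_filter.1 hp).2 (congrArg Prod.snd e))
      (fun p hp => Finset.mem_filter.2 ⟨by simp, fun e => (Finset.mem_filter.1 hp).2 e.symm⟩)
      (fun p _ => rfl), add_zero, Finset.sum_filter, Finset.sum_product] at e1
  rw [← e1]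
  refine Finset.sum_congr rfl fun σ _ => ?_
  rw [Finset.sum_ite_eq, if_pos (Finset.mem_univ _), frobenius_def, pow_two, map_mul]

theorem semilinear_tw (θ : F ≃+* F) (hc : ∀ σ : F ≃+* F, σ * θ = θ * σ) (h4 : θ ^ 4 ≠ 1) (A B : F →+ F)
    (hA : A 1 ≠ 0) (h : ∀ x, B (θ x * x) = θ (A x) * A x) : ∃ (a : F) (φ : F ≃+* F), ∀ x, A x = a * φ x := by
  classical
  have c2 : (2 : F) = 0 := CharTwo.two_eq_zero
  obtain ⟨a, ha⟩ := H40.FieldAut.add_eq_sum' A
  obtain ⟨b, hb⟩ := H40.FieldAut.add_eq_sum' B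
  have h1 : θ ≠ 1 := fun e => h4 (by rw [e, one_pow])
  obtain ⟨hs, hd⟩ := quad_coeff (c := fun σ τ => a σ * θ (a (θ⁻¹ * τ)) + if τ = θ * σ then b σ else 0)
    fun x => by
      have e1 := (h x).trans (mul_comm _ _)
      rw [hb, ha, map_sum, Finset.sum_mul_sum] at e1
      simp only [add_mul, Finset.sum_add_distrib, ite_mul, zero_mul, Finset.sum_ite_eq', Finset.mem_univ,
        if_true]
      rw [CharTwo.add_eq_zero]
      refine Eq.trans (Finset.sum_congr rfl fun σ _ => ?_) (e1.symm.trans (Finset.sum_congr rfl fun σ _ => ?_))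
      · refine (Fintype.sum_equiv (Equiv.mulLeft θ) _ _ fun τ => ?_).symm
        rw [Equiv.coe_mulLeft, inv_mul_cancel_left, map_mul, RingAut.mul_apply]
        ring
      · rw [← hc, map_mul, RingAut.mul_apply, mul_comm (σ x)]
  have hd' : ∀ ρ, a ρ ≠ 0 → a (θ * ρ) = 0 := fun ρ hρ => by
    have e1 := hd (θ * ρ)
    rw [if_neg (fun e => h1 (by simpa using e.symm)), add_zero, inv_mul_cancel_left] at e1
    exact (mul_eq_zero.1 e1).resolve_right (by simpa using hρ)
  have hu : ∀ σ ρ, a σ ≠ 0 → a ρ ≠ 0 → σ ≠ ρ → σ = θ * (θ * ρ) := fun σ ρ hσ hρ hne => by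
    by_contra h2
    have e1 := hs σ (θ * ρ)
    rw [if_neg (fun e => hne (mul_left_cancel e).symm), if_neg h2, add_zero, add_zero, inv_mul_cancel_left,
      hd' ρ hρ, zero_mul] at e1
    exact mul_ne_zero hσ (by simpa using hρ) e1
  obtain ⟨σ, hσ⟩ : ∃ σ, a σ ≠ 0 := by
    by_contra h0
    push Not at h0
    exact hA (by simp [ha, h0])
  refine ⟨a σ, σ, fun x => ?_⟩
  rw [ha, Finset.sum_eq_single σ (fun ρ _ hρ => ?_) (by simp)]
  by_contra h0
  have h2 := left_ne_zero_of_mul h0
  have e1 := hu σ ρ hσ h2 hρ.symm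
  rw [hu ρ σ h2 hσ hρ] at e1
  exact h4 (mul_right_cancel (b := σ) (by rw [one_mul]; nth_rewrite 2 [e1]; simp only [pow_succ, pow_zero, one_mul, mul_assoc]))

end quad

variable {G : Type*} [Group G] {F : Type*} [Field F] [Fintype F] {m : ℕ} [hz : SzF F m] (M : Model G F m)

/-- First coordinate. -/
noncomputable def cX (g : M.U) : F := g.2.choose
/-- Second coordinate. -/
noncomputable def cY (g : M.U) : F := g.2.choose_spec.choose

theorem eq_u (g : M.U) : g.1 = M.u (cX M g) (cY M g) := g.2.choose_spec.choose_spec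

theorem c_eq {g : M.U} {a b : F} (h : g.1 = M.u a b) : cX M g = a ∧ cY M g = b :=
  M.u_inj.1 ((eq_u M g).symm.trans h)

theorem c_mul (g h : M.U) : cX M (g * h) = cX M g + cX M h ∧
    cY M (g * h) = cY M g + cY M h + th F (cX M g) * cX M h :=
  c_eq M (by rw [coe_mul, eq_u M g, eq_u M h, M.u_mul])

theorem c_ext {g h : M.U} (e1 : cX M g = cX M h) (e2 : cY M g = cY M h) : g = h :=
  Subtype.ext (by rw [eq_u M g, eq_u M h, e1, e2])

/-- The element with given coordinates. -/
noncomputable def mk (a b : F) : M.U := ⟨M.u a b, M.u_mem_U a b⟩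

theorem cX_mk (a b : F) : cX M (mk M a b) = a := (c_eq M rfl).1
theorem cY_mk (a b : F) : cY M (mk M a b) = b := (c_eq M rfl).2
theorem c_one : cX M 1 = 0 ∧ cY M 1 = 0 := c_eq M M.u_zero.symm

theorem c_sq (g : M.U) : cX M (g * g) = 0 ∧ cY M (g * g) = th F (cX M g) * cX M g := by
  rw [(c_mul M g g).1, (c_mul M g g).2]
  constructor <;> grind

theorem sc_Sz : SC (cX M) where
  mul g h := (c_mul M g h).1
  surj a := ⟨_, cX_mk M a 0⟩
  cen z hz g := c_ext M (by rw [(c_mul M _ _).1, (c_mul M _ _).1, add_comm])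
    (by rw [(c_mul M _ _).2, (c_mul M _ _).2, hz, map_zero]; ring)
  sq g := by
    refine ⟨fun e => ?_, fun e => c_ext M (by rw [(c_sq M g).1, (c_one M).1])
      (by rw [(c_sq M g).2, (c_one M).2, e, mul_zero])⟩
    have h1 := (c_sq M g).2
    rw [e, (c_one M).2, eq_comm, mul_eq_zero, th_eq_zero, or_self] at h1
    exact h1
  root z hz := by
    obtain ⟨x, hx⟩ := th_mul_self_surjective (cY M z)
    exact ⟨mk M x 0, c_ext M (by rw [(c_sq M _).1, hz]) (by rw [(c_sq M _).2, cX_mk, hx])⟩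

theorem ring_th (φ : F ≃+* F) (x : F) : φ (th F x) = th F (φ x) := by
  rw [th_apply, th_apply, map_pow]

theorem lo_Sz (a : F) (ha : a ≠ 0) (φ : F ≃+* F) :
    ∃ α : MulAut M.U, ∀ g, cX M (α g) = a * φ (cX M g) := by
  have := M.finite
  let f : M.U →* M.U := MonoidHom.mk' (fun g => mk M (a * φ (cX M g)) (th F a * a * φ (cY M g)))
    fun g g' => c_ext M (by simp only [(c_mul M _ _).1, cX_mk, map_add]; ring)
      (by simp only [(c_mul M _ _).2, cX_mk, cY_mk, map_add, map_mul, ring_th]; ring)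
  have hf : Function.Injective f := (injective_iff_map_eq_one f).2 fun g hg => by
    have h1 : cX M (mk M _ _) = _ := congrArg (cX M) hg
    have h2 : cY M (mk M _ _) = _ := congrArg (cY M) hg
    rw [cX_mk] at h1
    rw [cY_mk] at h2
    simp only [c_one M, mul_eq_zero, ha, th_eq_zero, or_self, false_or, map_eq_zero] at h1 h2
    exact c_ext M (by rw [h1, (c_one M).1]) (by rw [h2, (c_one M).2])
  exact ⟨MulEquiv.ofBijective f (Finite.injective_iff_bijective.1 hf), fun _ => cX_mk M _ _⟩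

theorem up_Sz (α : MulAut M.U) : ∃ (a : F) (φ : F ≃+* F), ∀ g, cX M (α g) = a * φ (cX M g) := by
  have h := sc_Sz M
  have := H40.FieldAut.finite_aut (F := F)
  have := Fintype.ofFinite (F ≃+* F)
  let θ : F ≃+* F := RingEquiv.ofBijective (th F) th_bijective
  have hθ : ∀ x, θ x = th F x := fun _ => rfl
  let A : F →+ F := AddMonoidHom.mk' (h.rho α) fun x y => by
    obtain ⟨g, rfl⟩ := h.surj x
    obtain ⟨g', rfl⟩ := h.surj y
    rw [← h.mul, h.rho_apply, h.rho_apply, h.rho_apply, map_mul, h.mul]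
  have hA : ∀ g, A (cX M g) = cX M (α g) := h.rho_apply α
  let B : F →+ F := AddMonoidHom.mk' (fun y => cY M (α (mk M 0 y))) fun x y => by
    have e1 : mk M 0 (x + y) = mk M 0 x * mk M 0 y :=
      c_ext M (by simp only [(c_mul M _ _).1, cX_mk, add_zero])
        (by simp only [(c_mul M _ _).2, cX_mk, cY_mk, mul_zero, add_zero])
    simp only [e1, map_mul, (c_mul M _ _).2, (h.map_eq_zero α).2 (cX_mk M 0 y), mul_zero, add_zero]
  obtain ⟨a, φ, e⟩ := semilinear_tw θ (fun σ => RingEquiv.ext fun x => ring_th σ x) (fun e => by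
      have h1 : ∀ x : F, x ^ 4 = x := fun x => by
        have h2 := DFunLike.congr_fun e x
        simp only [pow_succ, pow_zero, one_mul, RingAut.mul_apply, hθ, th_th, RingAut.one_apply] at h2
        rw [← h2, h2]
        linear_combination h2
      have h2 := Nat.le_of_dvd (by omega) ((FiniteField.forall_pow_eq_one_iff F 3).1 fun x =>
        Units.ext (mul_right_cancel₀ x.ne_zero (by
          rw [Units.val_pow_eq_pow_val, ← pow_succ, h1, Units.val_one, one_mul])))
      have := eight_le_card (F := F)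
      omega) A B (by
      rw [← cX_mk M 1 0, hA, Ne, h.map_eq_zero, cX_mk]
      exact one_ne_zero) fun x => by
      obtain ⟨g, rfl⟩ := h.surj x
      have e1 : mk M 0 (θ (cX M g) * cX M g) = g * g :=
        c_ext M (by rw [cX_mk, (c_sq M g).1]) (by rw [cY_mk, (c_sq M g).2, hθ])
      change cY M (α (mk M 0 _)) = _
      rw [e1, map_mul, (c_sq M _).2, hA, hθ]
  exact ⟨a, φ, fun g => by rw [← hA, e]⟩

end H13.TG.AS
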