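import Mathlib

/-! `GL₅(2)`: its order and the absence of elements of order 9. -/

set_option autoImplicit false

namespace Cfsg.Agent.H13.GL52

open Matrix

theorem card_GL52 : Nat.card (GL (Fin 5) (ZMod 2)) = 9999360 := by
  rw [Matrix.card_GL_field]
  simp [Fin.prod_univ_succ]

theorem nine_dvd {Γ V : Type*} [Group Γ] [MulAction Γ V] (g : Γ) (hord : orderOf g = 9) :
    9 ∣ Nat.card {v : V // ¬ (g ^ 3) • v = v} := by
  classical
  have hfin : IsOfFinOrder g := orderOf_pos_iff.1 (by omega)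
  let A := Subgroup.zpowers g
  have hA : Nat.card A = 9 := by rw [Nat.card_zpowers, hord]
  let X : SubMulAction A V :=
    { carrier := {v | (g ^ 3) • v ≠ v}
      smul_mem' := by
        rintro ⟨a, ha⟩ v hv h
        apply hv
        obtain ⟨k, rfl⟩ := Subgroup.mem_zpowers_iff.1 ha
        change (g ^ 3) • (g ^ k) • v = (g ^ k) • v at h
        rw [← mul_smul, ((Commute.refl g).pow_left 3).zpow_right k |>.eq, mul_smul] at h
        exact smul_left_cancel _ h }
  have hfree : ∀ b : X, MulAction.stabilizer A b = ⊥ := by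
    rintro ⟨v, hv⟩
    rw [eq_bot_iff]
    rintro ⟨a, ha⟩ hs
    obtain ⟨k, hk, rfl⟩ : ∃ k : ℕ, k < 9 ∧ g ^ k = a := by
      have := hfin.mem_zpowers_iff_mem_range_orderOf.1 ha
      simp only [hord, Finset.mem_image, Finset.mem_range] at this
      exact this
    have hs' : (g ^ k) • v = v := congrArg Subtype.val hs
    have hall : ∀ m : ℕ, (g ^ (k * m)) • v = v := by
      intro m
      induction m with
      | zero => simp
      | succ m ih => rw [Nat.mul_succ, pow_add, mul_smul, hs', ih]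
    rw [Subgroup.mem_bot]
    by_contra hne
    have hk0 : k ≠ 0 := by rintro rfl; exact hne (Subtype.ext (pow_zero g))
    obtain ⟨m, hm⟩ : ∃ m, (k * m) % 9 = 3 := by
      interval_cases k
      · exact absurd rfl hk0
      exacts [⟨3, rfl⟩, ⟨6, rfl⟩, ⟨1, rfl⟩, ⟨3, rfl⟩, ⟨6, rfl⟩, ⟨2, rfl⟩, ⟨3, rfl⟩, ⟨6, rfl⟩]
    have := hall m
    rw [← pow_mod_orderOf, hord, hm] at this
    exact hv this
  have hdvd : 9 ∣ Nat.card X := by
    rw [Nat.card_congr (MulAction.selfEquivOrbitsQuotientProd hfree), Nat.card_prod, hA]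
    exact Dvd.intro_left _ rfl
  exact hdvd

theorem eq_one_of_nine_dvd (u : GL (Fin 5) (ZMod 2))
    (hdvd : 9 ∣ Nat.card {v : Fin 5 → ZMod 2 // ¬ u • v = v}) : u = 1 := by
  classical
  let W := LinearMap.ker (Matrix.toLin' (u : Matrix (Fin 5) (Fin 5) (ZMod 2)) - LinearMap.id)
  have hW : ∀ v, v ∈ W ↔ u • v = v := by
    intro v
    simp only [W, LinearMap.mem_ker, LinearMap.sub_apply, toLin'_apply, LinearMap.id_coe, id_eq,
      sub_eq_zero]
    rfl
  have hsum : Nat.card {v : Fin 5 → ZMod 2 // ¬ u • v = v} + Nat.card W = 32 := by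
    have e := Fintype.card_subtype_compl (fun v : Fin 5 → ZMod 2 => u • v = v)
    have e2 : Nat.card W = Fintype.card {v : Fin 5 → ZMod 2 // u • v = v} := by
      rw [← Nat.card_eq_fintype_card]
      exact Nat.card_congr (Equiv.subtypeEquivRight hW)
    have e3 : Fintype.card {v : Fin 5 → ZMod 2 // u • v = v} ≤ Fintype.card (Fin 5 → ZMod 2) :=
      Fintype.card_subtype_le _
    have e4 : Fintype.card (Fin 5 → ZMod 2) = 32 := by simp
    rw [Nat.card_eq_fintype_card]
    omega
  have hcW : Nat.card W = 2 ^ Module.finrank (ZMod 2) W := by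
    rw [Module.natCard_eq_pow_finrank (K := ZMod 2) (V := W)]; simp
  have hle : Module.finrank (ZMod 2) W ≤ 5 := by
    have := Submodule.finrank_le W
    simpa using this
  have h5 : Module.finrank (ZMod 2) W = 5 := by
    generalize Module.finrank (ZMod 2) W = k at hle hcW
    generalize Nat.card {v : Fin 5 → ZMod 2 // ¬ u • v = v} = a at hdvd hsum
    generalize Nat.card W = b at hcW hsum
    interval_cases k <;> omega
  have htop : W = ⊤ := Submodule.eq_top_of_finrank_eq (by simp [h5])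
  rw [LinearMap.ker_eq_top, sub_eq_zero] at htop
  have h2 := congrArg LinearMap.toMatrix' htop
  apply Units.ext
  simpa using h2

/-- If `g ^ 9 = 1` in `GL₅(2)` then `g ^ 3 = 1`. -/
theorem pow_three_eq_one (g : GL (Fin 5) (ZMod 2)) (h9 : g ^ 9 = 1) : g ^ 3 = 1 := by
  by_contra h3
  have hord : orderOf g = 9 := by
    haveI : Fact (Nat.Prime 3) := ⟨by norm_num⟩
    have := orderOf_eq_prime_pow (p := 3) (n := 1) (x := g) (by simpa using h3) (by simpa using h9)
    simpa using this
  exact h3 (eq_one_of_nine_dvd _ (nine_dvd g hord))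

theorem not_nine_dvd_orderOf (g : GL (Fin 5) (ZMod 2)) : ¬ 9 ∣ orderOf g := by
  rintro ⟨k, hk⟩
  have hpos : 0 < orderOf g := orderOf_pos g
  have hk0 : k ≠ 0 := by rintro rfl; omega
  have h9 : (g ^ k) ^ 9 = 1 := by rw [← pow_mul, mul_comm, ← hk, pow_orderOf_eq_one]
  have h3 := pow_three_eq_one _ h9
  rw [← pow_mul, ← orderOf_dvd_iff_pow_eq_one, hk] at h3
  have := Nat.le_of_dvd (by omega) h3
  omega

end Cfsg.Agent.H13.GL52
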