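import Mathlib
import Cfsg.Agent.Lib.TwoGrp.RankOne

/-!
Central extensions of generalized quaternion groups.
-/

set_option autoImplicit false

namespace H13.TG

open Subgroup Cfsg
open scoped commutatorElement

variable {S : Type*} [Group S] [Finite S]

theorem quat_lift (hS : IsPGroup 2 S) (D : Subgroup S) [D.Normal]
    (hna : ¬ IsMulCommutative (S ⧸ D)) (hu : ∃! x : S ⧸ D, orderOf x = 2) :
    ∃ (a b : S) (n : ℕ) (e : S ⧸ D ≃* QuaternionGroup (2 ^ (n + 1))),
      e a = .a 1 ∧ e b = .xa 0 ∧ ∀ x, ∃ i : ℕ, ∃ d ∈ D, x = a ^ i * d ∨ x = b * a ^ i * d := by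
  rcases (ui_of_existsUnique hu).cases (hS.to_quotient D) with h | ⟨n, ⟨e⟩⟩
  · exact absurd ⟨⟨fun a b => (IsCyclic.commGroup (α := S ⧸ D)).mul_comm a b⟩⟩ hna
  obtain ⟨a, ha⟩ := QuotientGroup.mk_surjective (e.symm (.a 1))
  obtain ⟨b, hb⟩ := QuotientGroup.mk_surjective (e.symm (.xa 0))
  have ha' : e a = .a 1 := by rw [ha, e.apply_symm_apply]
  have hb' : e b = .xa 0 := by rw [hb, e.apply_symm_apply]
  refine ⟨a, b, n, e, ha', hb', fun x => ?_⟩
  rcases hx : e x with i | i
  · refine ⟨i.val, (a ^ i.val)⁻¹ * x, QuotientGroup.eq.1 (e.injective ?_), Or.inl (by group)⟩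
    rw [hx, QuotientGroup.mk_pow, map_pow, ha', QuaternionGroup.a_one_pow, ZMod.natCast_zmod_val]
  · refine ⟨i.val, (b * a ^ i.val)⁻¹ * x, QuotientGroup.eq.1 (e.injective ?_), Or.inr (by group)⟩
    rw [hx, QuotientGroup.mk_mul, QuotientGroup.mk_pow, map_mul, map_pow, ha', hb',
      QuaternionGroup.a_one_pow, ZMod.natCast_zmod_val, QuaternionGroup.xa_mul_a, zero_add]

theorem isCyclic_commutator (hS : IsPGroup 2 S) (D : Subgroup S) [D.Normal] (hD : D ≤ center S)
    (hna : ¬ IsMulCommutative (S ⧸ D)) (hu : ∃! x : S ⧸ D, orderOf x = 2) :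
    IsCyclic (commutator S) := by
  obtain ⟨a, b, n, e, ha, hb, hx⟩ := quat_lift hS D hna hu
  have hA : ∀ x : S, (∃ i, e x = .a i) → Commute a x := by
    rintro x ⟨j, hj⟩
    obtain ⟨i, d, hd, rfl | rfl⟩ := hx x
    · exact ((Commute.refl a).pow_right i).mul_right (mem_center_iff.1 (hD hd) a)
    · rw [QuotientGroup.mk_mul_of_mem _ hd, QuotientGroup.mk_mul, QuotientGroup.mk_pow, map_mul,
        map_pow, ha, hb, QuaternionGroup.a_one_pow, QuaternionGroup.xa_mul_a] at hj
      cases hj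
  have hbb : Commute a (b * b) := hA _ ⟨_, by
    rw [QuotientGroup.mk_mul, map_mul, hb, QuaternionGroup.xa_mul_xa]⟩
  have hc : Commute a ⁅a, b⁆ := hA _ ⟨2, by
    rw [commutatorElement_def, QuotientGroup.mk_mul, QuotientGroup.mk_mul, QuotientGroup.mk_mul,
      QuotientGroup.mk_inv, QuotientGroup.mk_inv, map_mul, map_mul, map_mul, map_inv, map_inv, ha, hb,
      mul_inv_eq_iff_eq_mul, mul_inv_eq_iff_eq_mul]
    simp only [QuaternionGroup.a_mul_xa, QuaternionGroup.xa_mul_a]
    congr 1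
    ring⟩
  have hbc : b * ⁅a, b⁆ * b⁻¹ = ⁅a, b⁆⁻¹ := by
    have : b * b * a⁻¹ = a⁻¹ * (b * b) := hbb.inv_left.eq.symm
    calc b * ⁅a, b⁆ * b⁻¹ = b * a * b⁻¹ * (b * b * a⁻¹) * b⁻¹ * b⁻¹ := by
          rw [commutatorElement_def]; group
      _ = ⁅a, b⁆⁻¹ := by rw [this, commutatorElement_def]; group
  have hN : ∀ g : S, g ∈ normalizer (zpowers ⁅a, b⁆ : Set S) := by
    have h1 : a ∈ normalizer (zpowers ⁅a, b⁆ : Set S) :=
      mem_normalizer_fintype (H82.conj_mem_zpowers (by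
        rw [hc.eq, mul_inv_cancel_right]; exact mem_zpowers _))
    have h2 : b ∈ normalizer (zpowers ⁅a, b⁆ : Set S) :=
      mem_normalizer_fintype (H82.conj_mem_zpowers (by rw [hbc]; exact inv_mem (mem_zpowers _)))
    intro g
    obtain ⟨i, d, hd, rfl | rfl⟩ := hx g
    · exact mul_mem (pow_mem h1 i) (center_le_normalizer _ (hD hd))
    · exact mul_mem (mul_mem h2 (pow_mem h1 i)) (center_le_normalizer _ (hD hd))
  haveI : (zpowers ⁅a, b⁆).Normal := normalizer_eq_top_iff.1 (eq_top_iff.2 fun g _ => hN g)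
  have hle : commutator S ≤ zpowers ⁅a, b⁆ := by
    rw [← Normal.quotient_commutative_iff_commutator_le]
    let π := QuotientGroup.mk' (zpowers ⁅a, b⁆)
    have hab : Commute (π a) (π b) := by
      rw [← commutatorElement_eq_one_iff_commute, ← map_commutatorElement]
      exact (QuotientGroup.eq_one_iff _).2 (mem_zpowers _)
    have hd : ∀ d ∈ D, ∀ y, Commute (π y) (π d) := fun d hd y =>
      Commute.map (mem_center_iff.1 (hD hd) y) π
    have k : ∀ u, Commute (π u) (π a) → Commute (π u) (π b) → ∀ y, Commute (π u) (π y) := by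
      intro u h1 h2 y
      obtain ⟨i, d, hd', rfl | rfl⟩ := hx y
      · rw [map_mul, map_pow]; exact (h1.pow_right i).mul_right (hd d hd' u)
      · rw [map_mul, map_mul, map_pow]; exact (h2.mul_right (h1.pow_right i)).mul_right (hd d hd' u)
    refine ⟨⟨fun x y => ?_⟩⟩
    obtain ⟨x, rfl⟩ := QuotientGroup.mk_surjective x
    obtain ⟨y, rfl⟩ := QuotientGroup.mk_surjective y
    exact (k x (k a (Commute.refl _) hab x).symm (k b hab.symm (Commute.refl _) x).symm y).eq
  exact isCyclic_of_injective (inclusion hle) (inclusion_injective hle)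

end H13.TG
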