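import Mathlib

/-! Elements of order 3 of SL₂(5) inside Sp₄(3). -/

set_option autoImplicit false

namespace Cfsg.Agent.H13.Sp43

open Matrix

theorem zmod5_aux : ∀ a b c d : ZMod 5, a * d - b * c = 1 →
    (!![a, b; c, d] : Matrix (Fin 2) (Fin 2) (ZMod 5)) ^ 3 = 1 →
    (!![a, b; c, d] : Matrix (Fin 2) (Fin 2) (ZMod 5)) ≠ 1 →
    ∃ t : ZMod 5, ((!![a, b; c, d] * (!![1, t; 0, 1] * !![a, b; c, d] * !![1, -t; 0, 1])) ^ 2) ^ 5 = 1 ∧
      (!![a, b; c, d] * (!![1, t; 0, 1] * !![a, b; c, d] * !![1, -t; 0, 1])) ^ 2 ≠ 1 := by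
  intro a b c d
  simp only [pow_succ, pow_zero, one_mul, Matrix.mul_fin_two, Matrix.one_fin_two, ne_eq,
    EmbeddingLike.apply_eq_iff_eq, Matrix.vecCons_inj, and_true]
  revert a b c d
  decide +kernel

theorem exists_conj_zmod (x : SpecialLinearGroup (Fin 2) (ZMod 5)) (hx : orderOf x = 3) :
    ∃ g : SpecialLinearGroup (Fin 2) (ZMod 5), ((x * (g * x * g⁻¹)) ^ 2) ^ 5 = 1 ∧
      (x * (g * x * g⁻¹)) ^ 2 ≠ 1 := by
  have h3 : x ^ 3 = 1 := by rw [← hx]; exact pow_orderOf_eq_one x
  have h1 : x ≠ 1 := by rintro rfl; simp at hx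
  have hdet := x.2
  have hx' : (x : Matrix (Fin 2) (Fin 2) (ZMod 5)) = !![x 0 0, x 0 1; x 1 0, x 1 1] := by
    ext i j; fin_cases i <;> fin_cases j <;> rfl
  rw [Matrix.det_fin_two] at hdet
  obtain ⟨t, ht1, ht2⟩ := zmod5_aux (x 0 0) (x 0 1) (x 1 0) (x 1 1) hdet
    (by rw [← hx']; exact congrArg Subtype.val h3)
    (by rw [← hx']; intro h; exact h1 (Subtype.ext h))
  let g : SpecialLinearGroup (Fin 2) (ZMod 5) := ⟨!![1, t; 0, 1], by simp [Matrix.det_fin_two]⟩
  have hg : ((g⁻¹ : SpecialLinearGroup (Fin 2) (ZMod 5)) : Matrix (Fin 2) (Fin 2) (ZMod 5)) =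
      !![1, -t; 0, 1] := by
    rw [Matrix.SpecialLinearGroup.coe_inv]
    simp [g, Matrix.adjugate_fin_two]
  refine ⟨g, ?_, ?_⟩
  · apply Subtype.ext
    simp only [Matrix.SpecialLinearGroup.coe_pow, Matrix.SpecialLinearGroup.coe_mul, hg]
    rw [hx']; exact ht1
  · intro h
    apply ht2
    have := congrArg Subtype.val h
    simp only [Matrix.SpecialLinearGroup.coe_pow, Matrix.SpecialLinearGroup.coe_mul, hg] at this
    rw [hx'] at this; exact this

theorem exists_conj {K : Type*} [Field K] [Fintype K] (hK : Fintype.card K = 5)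
    (x : SpecialLinearGroup (Fin 2) K) (hx : orderOf x = 3) :
    ∃ g : SpecialLinearGroup (Fin 2) K, ((x * (g * x * g⁻¹)) ^ 2) ^ 5 = 1 ∧
      (x * (g * x * g⁻¹)) ^ 2 ≠ 1 := by
  haveI : Fact (Nat.Prime 5) := ⟨by norm_num⟩
  let e : K ≃+* ZMod 5 := FiniteField.ringEquivOfCardEq (by rw [hK, ZMod.card])
  let f : SpecialLinearGroup (Fin 2) K →* SpecialLinearGroup (Fin 2) (ZMod 5) :=
    SpecialLinearGroup.map e.toRingHom
  let f' : SpecialLinearGroup (Fin 2) (ZMod 5) →* SpecialLinearGroup (Fin 2) K :=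
    SpecialLinearGroup.map e.symm.toRingHom
  have hff : ∀ y, f' (f y) = y := by
    intro y; ext i j; simp [f, f']
  have hf'f : ∀ y, f (f' y) = y := by
    intro y; ext i j; simp [f, f']
  have hinj : Function.Injective f := Function.LeftInverse.injective hff
  obtain ⟨g, h1, h2⟩ := exists_conj_zmod (f x) (by rw [orderOf_injective f hinj, hx])
  refine ⟨f' g, ?_, ?_⟩
  · apply hinj
    simpa [hf'f] using h1
  · intro h
    apply h2
    have := congrArg f h
    simpa [hf'f] using this

/-- A matrix of order 5 on `F⁴`, `|F| = 3`, fixes no nonzero vector. -/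
theorem fixed_eq_zero {F : Type*} [Field F] [Fintype F] (hF : Fintype.card F = 3)
    {ι : Type*} [Fintype ι] [DecidableEq ι] (hι : Fintype.card ι = 4)
    (u : Matrix ι ι F) (h5 : u ^ 5 = 1) (h1 : u ≠ 1) :
    LinearMap.ker (Matrix.toLin' u - LinearMap.id) = ⊥ := by
  classical
  haveI : Fact (Nat.Prime 5) := ⟨by norm_num⟩
  set W := LinearMap.ker (Matrix.toLin' u - LinearMap.id) with hW
  have hcardV : Fintype.card (ι → F) = 81 := by simp [hF, hι]
  have hper : (fun v : ι → F => u *ᵥ v)^[5 ^ 1] = id := by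
    funext v
    have : ∀ n : ℕ, (fun v : ι → F => u *ᵥ v)^[n] v = (u ^ n) *ᵥ v := by
      intro n
      induction n with
      | zero => simp
      | succ n ih => rw [Function.iterate_succ_apply', ih, pow_succ', Matrix.mulVec_mulVec]
    rw [pow_one, this, h5]; simp
  have hmod := Equiv.Perm.card_fixedPoints_modEq (f := fun v : ι → F => u *ᵥ v) (p := 5) (n := 1) hper
  have hcW : Fintype.card (Function.fixedPoints (fun v : ι → F => u *ᵥ v)) = 3 ^ Module.finrank F W := by
    rw [← hF, ← Module.card_eq_pow_finrank (K := F) (V := W)]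
    refine Fintype.card_congr (Equiv.subtypeEquivRight ?_)
    intro v
    simp [hW, Function.mem_fixedPoints_iff, sub_eq_zero, Function.IsFixedPt]
  have hle : Module.finrank F W ≤ 4 := by
    have := Submodule.finrank_le W
    simpa [hι] using this
  rw [hcardV, hcW] at hmod
  have h04 : Module.finrank F W = 0 ∨ Module.finrank F W = 4 := by
    generalize Module.finrank F W = k at hle hmod
    interval_cases k <;> simp_all [Nat.ModEq]
  rcases h04 with h | h
  · exact Submodule.finrank_eq_zero.mp h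
  · exfalso
    have : W = ⊤ := Submodule.eq_top_of_finrank_eq (by simp [h, hι])
    apply h1
    rw [hW, LinearMap.ker_eq_top, sub_eq_zero] at this
    have h2 := congrArg LinearMap.toMatrix' this
    simpa using h2

/-- A nilpotent endomorphism with cube zero has a kernel of at least a third of the dimension. -/
theorem finrank_le_three_mul {F V : Type*} [Field F] [AddCommGroup V] [Module F V]
    [FiniteDimensional F V] (N : V →ₗ[F] V) (h : N ^ 3 = 0) :
    Module.finrank F V ≤ 3 * Module.finrank F (LinearMap.ker N) := by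
  have key : ∀ A B : V →ₗ[F] V, Module.finrank F (LinearMap.ker (A * B)) ≤
      Module.finrank F (LinearMap.ker A) + Module.finrank F (LinearMap.ker B) := by
    intro A B
    have h1 := LinearMap.finrank_range_add_finrank_ker (B.domRestrict (LinearMap.ker (A * B)))
    have h2 : Module.finrank F (LinearMap.range (B.domRestrict (LinearMap.ker (A * B)))) ≤
        Module.finrank F (LinearMap.ker A) := by
      apply Submodule.finrank_mono
      rintro _ ⟨⟨v, hv⟩, rfl⟩
      simpa using hv
    have h3 : Module.finrank F (LinearMap.ker (B.domRestrict (LinearMap.ker (A * B)))) ≤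
        Module.finrank F (LinearMap.ker B) := by
      rw [← Submodule.finrank_map_subtype_eq]
      apply Submodule.finrank_mono
      rintro _ ⟨⟨v, hv⟩, hv2, rfl⟩
      simpa using hv2
    omega
  have h0 : Module.finrank F (LinearMap.ker (N * (N * N))) = Module.finrank F V := by
    have : N * (N * N) = 0 := by rw [← h]; noncomm_ring
    rw [this, LinearMap.ker_zero, finrank_top]
  have h1 := key N (N * N)
  have h2 := key N N
  omega

theorem main {F : Type*} [Field F] [Fintype F] (hF : Fintype.card F = 3)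
    {K : Type*} [Field K] [Fintype K] (hK : Fintype.card K = 5)
    (φ : Matrix.SpecialLinearGroup (Fin 2) K →* ↥(Matrix.symplecticGroup (Fin 2) F))
    (hφ : Function.Injective φ)
    (x : Matrix.SpecialLinearGroup (Fin 2) K) (hx : orderOf x = 3) :
    Module.finrank F ↥(LinearMap.ker (Matrix.toLin'
      ((φ x : Matrix (Fin 2 ⊕ Fin 2) (Fin 2 ⊕ Fin 2) F)) - LinearMap.id)) = 2 ∧
      ∀ v w : Fin 2 ⊕ Fin 2 → F, (φ x : Matrix (Fin 2 ⊕ Fin 2) (Fin 2 ⊕ Fin 2) F).mulVec v = v →
        (φ x : Matrix (Fin 2 ⊕ Fin 2) (Fin 2 ⊕ Fin 2) F).mulVec w = w →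
          dotProduct v ((Matrix.J (Fin 2) F).mulVec w) = 0 := by
  classical
  haveI : Fact (Nat.Prime 3) := ⟨by norm_num⟩
  haveI hchar : CharP F 3 := charP_of_card_eq_prime_pow (f := 1) (by simpa using hF)
  let ρ : SpecialLinearGroup (Fin 2) K →* Matrix (Fin 2 ⊕ Fin 2) (Fin 2 ⊕ Fin 2) F :=
    (Matrix.symplecticGroup (Fin 2) F).subtype.comp φ
  have hρ : ∀ y, ρ y = (φ y : Matrix (Fin 2 ⊕ Fin 2) (Fin 2 ⊕ Fin 2) F) := fun _ => rfl
  have hρinj : Function.Injective ρ := Subtype.val_injective.comp hφ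
  let Fx : SpecialLinearGroup (Fin 2) K → Submodule F (Fin 2 ⊕ Fin 2 → F) :=
    fun y => LinearMap.ker (Matrix.toLin' (ρ y) - LinearMap.id)
  have hFx : ∀ y v, v ∈ Fx y ↔ ρ y *ᵥ v = v := by
    intro y v; simp [Fx, sub_eq_zero]
  have hdimV : Module.finrank F (Fin 2 ⊕ Fin 2 → F) = 4 := by simp
  have h3 : x ^ 3 = 1 := by rw [← hx]; exact pow_orderOf_eq_one x
  have h1 : x ≠ 1 := by rintro rfl; simp at hx
  set N : (Fin 2 ⊕ Fin 2 → F) →ₗ[F] (Fin 2 ⊕ Fin 2 → F) := Matrix.toLin' (ρ x) - LinearMap.id with hN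
  have hN3 : N ^ 3 = 0 := by
    have hc : Commute (Matrix.toLin' (ρ x) : Module.End F _) 1 := Commute.one_right _
    haveI : CharP (Module.End F (Fin 2 ⊕ Fin 2 → F)) 3 :=
      charP_of_injective_algebraMap (algebraMap F (Module.End F (Fin 2 ⊕ Fin 2 → F))).injective 3
    have := sub_pow_char_of_commute 3 hc
    rw [hN, ← Module.End.one_eq_id, this, one_pow, ← Matrix.toLin'_pow, ← map_pow, h3, map_one,
      Matrix.toLin'_one, Module.End.one_eq_id, sub_self]
  have hge : 2 ≤ Module.finrank F (Fx x) := by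
    have := finrank_le_three_mul N hN3
    rw [hdimV] at this
    change 4 ≤ 3 * Module.finrank F (Fx x) at this
    omega
  have hle : Module.finrank F (Fx x) ≤ 2 := by
    by_contra hlt
    push Not at hlt
    obtain ⟨g, hg5, hg1⟩ := exists_conj hK x hx
    have hconj : Module.finrank F (Fx x) ≤ Module.finrank F (Fx (g * x * g⁻¹)) := by
      have hinj : Function.Injective (Matrix.toLin' (ρ g)) := by
        intro v w hvw
        have := congrArg (fun z => ρ g⁻¹ *ᵥ z) hvw
        simpa [Matrix.mulVec_mulVec, ← map_mul] using this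
      rw [LinearEquiv.finrank_eq (Submodule.equivMapOfInjective _ hinj (Fx x))]
      apply Submodule.finrank_mono
      rintro _ ⟨v, hv, rfl⟩
      rw [hFx]
      have hv' := (hFx x v).1 hv
      simp only [Matrix.toLin'_apply, Matrix.mulVec_mulVec, ← map_mul, inv_mul_cancel_right]
      rw [map_mul, ← Matrix.mulVec_mulVec, hv']
    have hinf := Submodule.finrank_sup_add_finrank_inf_eq (Fx x) (Fx (g * x * g⁻¹))
    have hsup : Module.finrank F ↥(Fx x ⊔ Fx (g * x * g⁻¹)) ≤ 4 := by
      rw [← hdimV]; exact Submodule.finrank_le _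
    have hbot := fixed_eq_zero hF (by simp) (ρ ((x * (g * x * g⁻¹)) ^ 2))
      (by rw [← map_pow, hg5, map_one]) (by
        intro h; apply hg1; apply hρinj; rw [h, map_one])
    have hsub : Fx x ⊓ Fx (g * x * g⁻¹) ≤ ⊥ := by
      rw [← hbot]
      rintro v ⟨hv1, hv2⟩
      have e1 := (hFx _ _).1 hv1
      have e2 := (hFx _ _).1 hv2
      change v ∈ Fx _
      rw [hFx, pow_two, map_mul, map_mul ρ x, ← Matrix.mulVec_mulVec, ← Matrix.mulVec_mulVec,
        ← Matrix.mulVec_mulVec, e2, e1, e2, e1]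
    have : Module.finrank F ↥(Fx x ⊓ Fx (g * x * g⁻¹)) = 0 := by
      rw [le_bot_iff.mp hsub]; simp
    omega
  have hdim : Module.finrank F (Fx x) = 2 := le_antisymm hle hge
  refine ⟨hdim, ?_⟩
  intro v w hv hw
  let B : (Fin 2 ⊕ Fin 2 → F) → (Fin 2 ⊕ Fin 2 → F) → F :=
    fun a b => dotProduct a ((Matrix.J (Fin 2) F).mulVec b)
  have hBinv : ∀ a b, B (ρ x *ᵥ a) (ρ x *ᵥ b) = B a b := by
    intro a b
    have hm := SymplecticGroup.mem_iff'.1 (φ x).2
    simp only [B]
    rw [Matrix.mulVec_mulVec, ← Matrix.vecMul_transpose, ← Matrix.dotProduct_mulVec,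
      Matrix.mulVec_mulVec, ← Matrix.mul_assoc, hρ, hm]
  have hBalt : ∀ a, B a a = 0 := by
    intro a
    simp [B, Matrix.J, dotProduct, Matrix.mulVec, Fintype.sum_sum_type, Fin.sum_univ_two,
      Matrix.one_apply]
    ring
  -- a nonzero vector in the image and the kernel of `N`
  have hN0 : N ≠ 0 := by
    intro h
    have : Fx x = ⊤ := by
      change LinearMap.ker N = ⊤
      rw [h, LinearMap.ker_zero]
    rw [this, finrank_top, hdimV] at hdim
    omega
  obtain ⟨r, hr0, hrk, s, hs⟩ : ∃ r, r ≠ 0 ∧ N r = 0 ∧ ∃ s, N s = r := by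
    by_cases h2 : N * N = 0
    · obtain ⟨s, hs⟩ : ∃ s, N s ≠ 0 := by
        by_contra hh; push Not at hh; exact hN0 (LinearMap.ext hh)
      exact ⟨N s, hs, by simpa using congrArg (fun f => f s) h2, s, rfl⟩
    · obtain ⟨s, hs⟩ : ∃ s, (N * N) s ≠ 0 := by
        by_contra hh; push Not at hh; exact h2 (LinearMap.ext hh)
      refine ⟨(N * N) s, hs, ?_, N s, rfl⟩
      have : N * (N * N) = 0 := by rw [← hN3]; noncomm_ring
      simpa using congrArg (fun f => f s) this
  have hvr : B v r = 0 := by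
    have e : r = ρ x *ᵥ s - s := by rw [← hs, hN]; simp
    have h := hBinv v s
    rw [hρ, hv, ← hρ] at h
    rw [e]
    simp only [B] at h ⊢
    rw [Matrix.mulVec_sub, dotProduct_sub, h, sub_self]
  have hrF : r ∈ Fx x := hrk
  have hvF : v ∈ Fx x := (hFx _ _).2 hv
  have hwF : w ∈ Fx x := (hFx _ _).2 hw
  have hwr : B w r = 0 := by
    have e : r = ρ x *ᵥ s - s := by rw [← hs, hN]; simp
    have h := hBinv w s
    rw [hρ, hw, ← hρ] at h
    rw [e]
    simp only [B] at h ⊢
    rw [Matrix.mulVec_sub, dotProduct_sub, h, sub_self]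
  have hskew : ∀ a b, B a b = - B b a := by
    intro a b
    have h := hBalt (a + b)
    have ha := hBalt a
    have hb := hBalt b
    simp only [B, Matrix.mulVec_add, add_dotProduct, dotProduct_add] at h ha hb ⊢
    linear_combination h - ha - hb
  change B v w = 0
  by_cases hli : LinearIndependent F ![r, v]
  · have hspan : Submodule.span F (Set.range ![r, v]) = Fx x := by
      apply Submodule.eq_of_le_of_finrank_eq
      · rw [Submodule.span_le]
        rintro _ ⟨i, rfl⟩
        fin_cases i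
        · exact hrF
        · exact hvF
      · rw [finrank_span_eq_card hli, hdim]; simp
    rw [← hspan] at hwF
    simp only [Matrix.range_cons, Matrix.range_empty, Set.union_empty, Set.union_singleton] at hwF
    obtain ⟨a, b, rfl⟩ := Submodule.mem_span_pair.1 hwF
    have h1 := hBalt v
    simp only [B, Matrix.mulVec_add, dotProduct_add, Matrix.mulVec_smul, dotProduct_smul] at h1 hvr ⊢
    rw [h1, hvr]; simp
  · rw [LinearIndependent.pair_iff' hr0] at hli
    push Not at hli
    obtain ⟨a, rfl⟩ := hli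
    rw [hskew]
    simp only [B, Matrix.mulVec_smul, dotProduct_smul] at hwr ⊢
    rw [hwr]; simp

end Cfsg.Agent.H13.Sp43
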